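import Mathlib

/-! A Landau-type finiteness argument for orthonormal systems of functions with algebraic integer values. -/

set_option autoImplicit false

namespace Cfsg.Agent.KZ

open Submodule Module Polynomial

universe u

theorem lan_span {V : Type*} [AddCommGroup V] [Module ℂ V] [FiniteDimensional ℂ V] (e : V) (C : Set (Set V))
    (H : ∀ φ : V →ₗ[ℂ] ℂ, φ e ≠ 0 → ∃ B : Set V, B.Finite ∧ ∀ R ∈ C, ∃ a ∈ R ∩ B, φ a ≠ 0) (d : ℕ) :
    ∀ U : Submodule ℂ V, finrank ℂ V ≤ finrank ℂ U + d →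
      ∃ F : Set V, F.Finite ∧ ∀ R ∈ C, e ∈ U ⊔ span ℂ (R ∩ F) := by
  induction d with
  | zero =>
    intro U hU
    obtain rfl := U.eq_top_of_finrank_eq (le_antisymm U.finrank_le hU)
    exact ⟨∅, Set.finite_empty, fun _ _ => by simp⟩
  | succ d ih =>
    intro U hU
    by_cases he : e ∈ U
    · exact ⟨∅, Set.finite_empty, fun _ _ => mem_sup_left he⟩
    obtain ⟨φ, h1, h2⟩ := exists_le_ker_of_notMem he
    obtain ⟨B, hB, h3⟩ := H φ h1
    have h4 : ∀ a : V, ∃ F : Set V, F.Finite ∧ (φ a ≠ 0 → ∀ R ∈ C, e ∈ (U ⊔ span ℂ {a}) ⊔ span ℂ (R ∩ F)) := fun a => by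
      by_cases ha : φ a = 0
      · exact ⟨∅, Set.finite_empty, fun h => absurd ha h⟩
      have : U < U ⊔ span ℂ {a} := lt_of_le_of_ne le_sup_left fun e =>
        ha (h2 (e ▸ mem_sup_right (mem_span_singleton_self a) : a ∈ U))
      obtain ⟨F, h5, h6⟩ := ih (U ⊔ span ℂ {a}) (by have := finrank_lt_finrank_of_lt this; omega)
      exact ⟨F, h5, fun _ => h6⟩
    choose F h5 h6 using h4
    refine ⟨B ∪ ⋃ a ∈ B, F a, hB.union (hB.biUnion fun a _ => h5 a), fun R hR => ?_⟩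
    obtain ⟨a, ha, h7⟩ := h3 R hR
    refine (sup_le (sup_le le_sup_left (le_sup_of_le_right (span_mono ?_))) (le_sup_of_le_right (span_mono ?_)) :
      _ ≤ U ⊔ span ℂ _) (h6 a h7 R hR)
    · exact Set.singleton_subset_iff.2 ⟨ha.1, Or.inl ha.2⟩
    · exact Set.inter_subset_inter_right _ fun x hx => Or.inr (Set.mem_biUnion ha.2 hx)

theorem lan_fin (n : ℕ) (T : ℝ) :
    {v : Fin n → ℂ | (∀ t : ℤ, ∃ m : ℤ, ∏ i, ((t : ℂ) - v i) = m) ∧ ‖v‖ ≤ T}.Finite := by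
  classical
  refine Set.Finite.of_finite_fibers (fun v (t : Fin (n + 1)) => ∏ i, (((t : ℕ) : ℂ) - v i)) ?_ ?_
  · refine (Set.Finite.pi' fun _ => (Set.finite_Icc (-⌈(n + T) ^ n⌉) ⌈(n + T) ^ n⌉).image ((↑) : ℤ → ℂ)).subset ?_
    rintro _ ⟨v, ⟨h1, h2⟩, rfl⟩ t
    obtain ⟨m, hm⟩ := h1 (t : ℕ)
    rw [Int.cast_natCast] at hm
    refine ⟨m, abs_le.1 (Int.cast_le (R := ℝ).1 (le_trans ?_ (Int.le_ceil _))), hm.symm⟩
    rw [Int.cast_abs, ← Complex.norm_intCast, ← hm, norm_prod]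
    refine (Finset.prod_le_prod (fun _ _ => norm_nonneg _) fun i _ => (?_ : _ ≤ n + T)).trans (by simp)
    refine (norm_sub_le _ _).trans (add_le_add ?_ ((norm_le_pi_norm v i).trans h2))
    rw [Complex.norm_natCast]
    exact_mod_cast Nat.lt_succ_iff.1 t.2
  · rintro _ ⟨w, -, rfl⟩
    refine (Set.Finite.pi' fun _ => Set.finite_range w).subset ?_
    rintro v ⟨-, h⟩ i
    have hd : ∀ w : Fin n → ℂ, (∏ i, (X - C (w i))).natDegree = n := fun w => by
      rw [natDegree_prod_of_monic _ _ fun i _ => monic_X_sub_C _]; simp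
    have h1 : ∏ i, (X - C (v i)) = ∏ i, (X - C (w i)) :=
      eq_of_natDegree_lt_card_of_eval_eq _ _ (f := fun t : Fin (n + 1) => ((t : ℕ) : ℂ))
        (fun a b e => Fin.ext (Nat.cast_injective e)) (fun t => by simpa [eval_prod] using congrFun h t)
        (by simp [hd])
    have h2 := congrArg (eval (v i)) h1
    simp only [eval_prod, eval_sub, eval_X, eval_C] at h2
    rw [Finset.prod_eq_zero (Finset.mem_univ i) (sub_self _), eq_comm, Finset.prod_eq_zero_iff] at h2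
    obtain ⟨j, -, hj⟩ := h2
    exact ⟨j, (sub_eq_zero.1 hj).symm⟩

theorem lan_ratio (n : ℕ) (o : Fin n) : ∃ Q : Set ℂ, Q.Finite ∧ ∀ (Ω : Type u) [Fintype Ω] [Nonempty Ω]
    (v : Ω → Fin n → ℂ) (r : Ω → Prop), (∀ g (t : ℤ), ∃ m : ℤ, ∏ i, ((t : ℂ) - v g i) = m) → (∀ g, v g o = 1) →
    ∑ g, v g = (Fintype.card Ω : ℂ) • Pi.single o 1 → (∀ i, ∑ g, ‖v g i‖ ^ 2 ≤ Fintype.card Ω) →
    (∀ g h, r g → ¬ r h → v g ⬝ᵥ v h = 0) → (Nat.card {g // r g} / Nat.card Ω : ℂ) ∈ Q := by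
  classical
  refine (lan_span (V := Fin n → ℂ) (Pi.single o 1) {R | ∃ (Ω : Type u) (_ : Fintype Ω) (_ : Nonempty Ω)
      (v : Ω → Fin n → ℂ), (∀ g (t : ℤ), ∃ m : ℤ, ∏ i, ((t : ℂ) - v g i) = m) ∧
      ∑ g, v g = (Fintype.card Ω : ℂ) • Pi.single o 1 ∧ (∀ i, ∑ g, ‖v g i‖ ^ 2 ≤ Fintype.card Ω) ∧ R = Set.range v}
      (fun φ hφ => ?_) _ ⊥ le_add_self).elim fun F ⟨hF, H⟩ => ?_
  swap
  · let c : Set (Fin n → ℂ) × Set (Fin n → ℂ) → ℂ := fun S =>
      if h : ∃ a ∈ span ℂ S.1, Pi.single o 1 - a ∈ span ℂ S.2 then h.choose o else 0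
    refine ⟨c '' (𝒫 F ×ˢ 𝒫 F), (hF.powerset.prod hF.powerset).image _, fun Ω _ _ v r h1 h2 h3 h4 h5 =>
      ⟨(v '' {g | r g} ∩ F, v '' {g | ¬ r g} ∩ F), ⟨Set.inter_subset_right, Set.inter_subset_right⟩, ?_⟩⟩
    have h6 := H _ ⟨Ω, inferInstance, inferInstance, v, h1, h3, h4, rfl⟩
    rw [bot_sup_eq, show Set.range v = v '' {g | r g} ∪ v '' {g | ¬ r g} by
      rw [← Set.image_union, ← Set.image_univ]; congr 1; ext g; simp [em], Set.union_inter_distrib_right,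
      span_union, mem_sup] at h6
    have h7 : ∃ a ∈ span ℂ (v '' {g | r g} ∩ F), Pi.single o 1 - a ∈ span ℂ (v '' {g | ¬ r g} ∩ F) := by
      obtain ⟨a, ha, b, hb, e⟩ := h6
      exact ⟨a, ha, by rwa [← e, add_sub_cancel_left]⟩
    simp only [c, dif_pos h7]
    obtain ⟨h8, h9⟩ := h7.choose_spec
    generalize h7.choose = a at h8 h9
    have key : ∀ (x : Fin n → ℂ) (S : Set (Fin n → ℂ)), (∀ y ∈ S, x ⬝ᵥ y = 0) → ∀ y ∈ span ℂ S, x ⬝ᵥ y = 0 :=
      fun x S h y hy => span_induction h (by simp) (fun _ _ _ _ p q => by rw [dotProduct_add, p, q, add_zero])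
        (fun _ _ _ p => by rw [dotProduct_smul, p, smul_zero]) hy
    have h10 : ∀ g, v g ⬝ᵥ a = if r g then 1 else 0 := fun g => by
      split_ifs with hg
      · have := key (v g) _ (by rintro _ ⟨⟨h, hh, rfl⟩, -⟩; exact h5 g h hg hh) _ h9
        rw [dotProduct_sub, dotProduct_single, h2, mul_one] at this
        exact (sub_eq_zero.1 this).symm
      · exact key (v g) _ (by rintro _ ⟨⟨h, hh, rfl⟩, -⟩; rw [dotProduct_comm]; exact h5 h g hh hg) _ h8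
    have h11 := congrArg (· ⬝ᵥ a) h3
    simp only [sum_dotProduct, h10, smul_dotProduct, single_dotProduct, one_mul, Finset.sum_boole, smul_eq_mul] at h11
    rw [Nat.card_eq_fintype_card, Nat.card_eq_fintype_card, Fintype.card_subtype, h11,
      mul_div_cancel_left₀ _ (Nat.cast_ne_zero.2 Fintype.card_ne_zero)]
  · obtain ⟨K, hK, hφK⟩ := (LinearMap.toContinuousLinearMap φ).bound
    have h0 := norm_pos_iff.2 hφ
    refine ⟨_, lan_fin n (K * (n + 1) / ‖φ (Pi.single o 1)‖), ?_⟩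
    rintro _ ⟨Ω, _, _, v, h1, h2, h3, rfl⟩
    by_contra! hn
    have h4 : ∀ g, (n + 1) * ‖φ (v g)‖ ≤ ‖φ (Pi.single o 1)‖ * ∑ i, ‖v g i‖ ^ 2 := fun g => by
      have h5 : ‖v g‖ ^ 2 ≤ ∑ i, ‖v g i‖ ^ 2 := by
        rw [← Real.le_sqrt (norm_nonneg _) (by positivity)]
        exact (pi_norm_le_iff_of_nonneg (Real.sqrt_nonneg _)).2 fun i => Real.le_sqrt_of_sq_le
          (Finset.single_le_sum (f := fun i => ‖v g i‖ ^ 2) (fun _ _ => by positivity) (Finset.mem_univ i))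
      by_cases h : ‖v g‖ ≤ K * (n + 1) / ‖φ (Pi.single o 1)‖
      · rw [hn _ ⟨⟨g, rfl⟩, h1 g, h⟩, norm_zero, mul_zero]; positivity
      rw [not_le, div_lt_iff₀ h0] at h
      have h6 : ‖φ (v g)‖ ≤ K * ‖v g‖ := hφK (v g)
      nlinarith [norm_nonneg (v g), mul_le_mul_of_nonneg_left h5 h0.le, mul_le_mul_of_nonneg_left h.le (norm_nonneg (v g)),
        mul_le_mul_of_nonneg_left h6 (by positivity : (0 : ℝ) ≤ n + 1)]
    have h5 := Finset.sum_le_sum fun g (_ : g ∈ Finset.univ) => h4 g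
    rw [← Finset.mul_sum, ← Finset.mul_sum, Finset.sum_comm] at h5
    have h6 := Finset.sum_le_sum fun i (_ : i ∈ Finset.univ) => h3 i
    have h7 := norm_sum_le Finset.univ fun g => φ (v g)
    rw [← map_sum, h2, map_smul, norm_smul, Complex.norm_natCast] at h7
    have h8 : (0 : ℝ) < Fintype.card Ω := by exact_mod_cast Fintype.card_pos
    simp only [Finset.sum_const, Finset.card_univ, Fintype.card_fin, nsmul_eq_mul] at h6
    nlinarith [mul_le_mul_of_nonneg_left h6 h0.le, mul_le_mul_of_nonneg_left h7 (by positivity : (0 : ℝ) ≤ n + 1),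
      mul_pos h0 h8]

end Cfsg.Agent.KZ
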